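import Mathlib
import Cfsg.Prelude.Def_Blocks
import Cfsg.Prelude.Def_Classical
import Cfsg.Agent.H677.CodMain
import Cfsg.Agent.H677.OmegaIrr
import Cfsg.Agent.H677.FusedDeg
import Cfsg.Agent.H677.PslThree
import Cfsg.Agent.H677.WeilIrr

/-!
# Simple groups of equal order with the same character degrees

`pull e`: transport of irreducible characters along an isomorphism;
`not_alt_psl`: no degree preserving bijection between the irreducible characters of `A₈` and
`PSL₃(4)`; `not_omega_psp`: none between those of `PΩ_{2n+1}(q)` and `PSp_{2n}(q)`, `n ≥ 3`, `q` odd.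
-/

set_option autoImplicit false

namespace Cfsg.Agent.H677.CodIso

open Cfsg Cfsg.Agent.H686.CharKit Cfsg.Agent.H677.CodMultiset

universe u v

/-- Transport of irreducible characters along an isomorphism. -/
def pull {G : Type u} {H : Type v} [Group G] [Group H] (e : G ≃* H) :
    IrrCharacter H ≃ IrrCharacter G where
  toFun χ := ⟨(χ : H → ℂ) ∘ e, Characters.Core.isIrr_comp e.toMonoidHom e.surjective χ.2⟩
  invFun χ := ⟨(χ : G → ℂ) ∘ e.symm,
    Characters.Core.isIrr_comp e.symm.toMonoidHom e.symm.surjective χ.2⟩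
  left_inv χ := Subtype.ext (funext fun x => congrArg (χ : H → ℂ) (e.apply_symm_apply x))
  right_inv χ := Subtype.ext (funext fun x => congrArg (χ : G → ℂ) (e.symm_apply_apply x))

theorem pull_apply {G : Type u} {H : Type v} [Group G] [Group H] (e : G ≃* H)
    (χ : IrrCharacter H) (g : G) : (pull e χ : G → ℂ) g = (χ : H → ℂ) (e g) := rfl

theorem charDegree_pull {G : Type u} {H : Type v} [Group G] [Group H] (e : G ≃* H)
    (χ : IrrCharacter H) : charDegree (pull e χ : G → ℂ) = charDegree (χ : H → ℂ) := by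
  unfold charDegree
  rw [pull_apply, map_one]

theorem card_pull {G : Type u} {H : Type v} [Group G] [Group H] (e : G ≃* H)
    (χ : IrrCharacter H) :
    Nat.card {g : G // (pull e χ : G → ℂ) g = (pull e χ : G → ℂ) 1} =
      Nat.card {g : H // (χ : H → ℂ) g = (χ : H → ℂ) 1} := by
  apply Nat.card_congr
  refine e.toEquiv.subtypeEquiv fun g => ?_
  rw [pull_apply, pull_apply, map_one]
  exact Iff.rfl

/-- `A₈` and `PSL₃(4)` have different character degrees. -/
theorem not_alt_psl {G : Type u} [Group G] [Finite G] {S : Type v} [Group S] [Finite S]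
    [IsSimpleGroup S] (f : IrrCharacter G ≃ IrrCharacter S)
    (hf : ∀ χ : IrrCharacter G, charDegree (χ : G → ℂ) = charDegree (f χ : S → ℂ))
    (hG : Nonempty (G ≃* alternatingGroup (Fin 8))) {F : Type} [Field F] [Fintype F]
    (hF : Fintype.card F = 4)
    (hS : Nonempty (S ≃* Matrix.ProjectiveSpecialLinearGroup (Fin 3) F)) : False := by
  obtain ⟨e⟩ := hG
  obtain ⟨e'⟩ := hS
  obtain ⟨χ, hχ⟩ := FusedDeg.alt_deg (n := 8) (by norm_num)
  have h1 : charDegree (f (pull e χ) : S → ℂ) = 7 := by
    rw [← hf, charDegree_pull, hχ]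
  have h2 : f (pull e χ) ≠ one S := by
    intro h
    rw [h, charDegree_one] at h1
    omega
  have h3 := PslThree.charDegree_ge e' _ h2
  rw [h1, Nat.card_eq_fintype_card, hF] at h3
  norm_num at h3

/-- `PΩ_{2n+1}(q)` and `PSp_{2n}(q)`, `n ≥ 3`, `q` odd, have different character degrees. -/
theorem not_omega_psp {G : Type u} [Group G] [Finite G] {S : Type v} [Group S] [Finite S]
    (f : IrrCharacter G ≃ IrrCharacter S)
    (hf : ∀ χ : IrrCharacter G, charDegree (χ : G → ℂ) = charDegree (f χ : S → ℂ))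
    {F : Type} [Field F] [Fintype F] {n : ℕ} (hF : Odd (Fintype.card F)) (hn : 3 ≤ n)
    (hG : Nonempty (G ≃* PSp n F)) (hS : Nonempty (S ≃* POmega F (quadFormOdd n F))) :
    False := by
  obtain ⟨e⟩ := hG
  obtain ⟨e'⟩ := hS
  have h2 : (2 : F) ≠ 0 := by
    intro h0
    obtain ⟨p, hp⟩ := CharP.exists F
    have hp0 : p.Prime := CharP.char_is_prime F p
    have := Fact.mk hp0
    obtain ⟨k, -, hk⟩ := FiniteField.card F p
    have h3 : p ∣ 2 := by
      rw [← CharP.cast_eq_zero_iff F p]
      exact_mod_cast h0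
    have h4 : p = 2 := (Nat.prime_dvd_prime_iff_eq hp0 Nat.prime_two).1 h3
    rw [hk, h4] at hF
    exact (Nat.not_odd_iff_even.2 ((Nat.even_pow.2 ⟨even_two, k.ne_zero⟩))) hF
  have hq : 3 ≤ Nat.card F := by
    rw [Nat.card_eq_fintype_card]
    have h1 : 1 < Fintype.card F := Fintype.one_lt_card
    obtain ⟨k, hk⟩ := hF
    omega
  have hqn : 27 ≤ Nat.card F ^ n := by
    calc 27 = 3 ^ 3 := by norm_num
      _ ≤ Nat.card F ^ 3 := Nat.pow_le_pow_left hq 3
      _ ≤ Nat.card F ^ n := Nat.pow_le_pow_right (by omega) hn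
  obtain ⟨χ, hχ⟩ := WeilIrr.exists_irr_psp (F := F) (n := n) (by omega) h2
  have h1 : charDegree (f (pull e χ) : S → ℂ) = charDegree (χ : PSp n F → ℂ) := by
    rw [← hf, charDegree_pull]
  have hne : f (pull e χ) ≠ one S := by
    intro h
    rw [h, charDegree_one] at h1
    rcases hχ with h | h <;> omega
  have h3 := OmegaIrr.charDegree_ge_odd (by omega) h2 e' _ hne
  rw [h1] at h3
  have h4 : Nat.card F ^ n ≤ Nat.card F ^ (2 * n - 3) :=
    Nat.pow_le_pow_right (by omega) (by omega)
  rcases hχ with h | h <;> omega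

end Cfsg.Agent.H677.CodIso
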